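import Mathlib
import Cfsg.Agent.Lib.CL.NormalMinimal

/-!
# Some minimal centrally large subgroup is normalized by `J(P)` and `P_MCL`, part 2
-/

set_option autoImplicit false

open scoped Pointwise commutatorElement
open Cfsg Subgroup

namespace CfsgLib.CL

variable {G : Type*} [Group G] [Finite G]

theorem cd_card_swap {Y W : Subgroup G} (hY : IsCentralizerLarge Y) (hW : IsCentralizerLarge W) :
    Nat.card Y * Nat.card ↥(centralizer (Y : Set G) ⊓ W) =
      Nat.card W * Nat.card ↥(Y ⊓ centralizer (W : Set G)) := by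
  obtain ⟨h1, -, h2, -⟩ := cd_core (cd_centralizer hY).1 hW
  unfold IsCentralizerLarge at h1
  rw [centralizer_sup, ← (cd_centralizer hY).2, ← hY] at h1
  set c := Nat.card (centralizer (Y : Set G))
  have hc : 0 < c := Nat.card_pos
  apply Nat.eq_of_mul_eq_mul_left hc
  calc c * (Nat.card Y * Nat.card ↥(centralizer (Y : Set G) ⊓ W))
      = (Nat.card Y * c) * Nat.card ↥(centralizer (Y : Set G) ⊓ W) := by ring
    _ = (Nat.card ↥(centralizer (Y : Set G) ⊔ W) * Nat.card ↥(centralizer (Y : Set G) ⊓ W)) *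
          Nat.card ↥(Y ⊓ centralizer (W : Set G)) := by rw [← h1]; ring
    _ = _ := by rw [h2]; ring

theorem replacement_step {Z Y B : Subgroup G} {g : G}
    (hY : IsCentralizerLarge Y) (hZY : Z ≤ Y)
    (hcov : ∀ X : Subgroup G, IsCentralizerLarge X → Z ≤ X → X ≤ Y → X = Z ∨ X = Y)
    (hg : g ∈ normalizer (Z : Set G)) (hB : IsMulCommutative B) (hZB : Z ≤ B)
    (hcomm : ∀ y ∈ Y, ⁅y, g⁆ ∈ B) (hC : Y ⊓ centralizer (B : Set G) = Z)
    (hcard : Nat.card Y * Nat.card ↥(centralizer (Y : Set G) ⊓ B) =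
      Nat.card B * Nat.card ↥(Y ⊓ centralizer (B : Set G)))
    (hne : g ∉ normalizer (Y : Set G)) :
    ∃ X : Subgroup G, IsCentralizerLarge X ∧ IsMulCommutative X ∧ Z < X ∧
      ∀ u ∈ X, ∃ z ∈ Z, ∃ y ∈ Y, u = z * ⁅y, g⁆ := by
  set Yg := Y.map (MulAut.conj g).toMonoidHom with hYg
  have hYg_cd : IsCentralizerLarge Yg := cd_map_conj hY g
  have hZg : Z.map (MulAut.conj g).toMonoidHom = Z := Core.mem_normalizer_iff_map_conj_eq'.mp hg
  have hZYg : Z ≤ Yg := hZg ▸ map_mono hZY
  have hcardg : Nat.card Yg = Nat.card Y := Core.card_map_conj Y g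
  have hinf : Y ⊓ Yg = Z := by
    rcases hcov _ (cd_inf hY hYg_cd) (le_inf hZY hZYg) inf_le_left with h | h
    · exact h
    · exfalso
      apply hne
      rw [Core.mem_normalizer_iff_map_conj_eq']
      exact (eq_of_le_of_card_ge (h ▸ inf_le_right) hcardg.le).symm
  have hZne : Z ≠ Y := by
    rintro rfl
    exact hne hg
  have hYB : Y ⊓ B = Z := le_antisymm
    (hC ▸ inf_le_inf_left Y (isMulCommutative_iff_le.mp hB)) (le_inf hZY hZB)
  have hmem : ∀ y ∈ Y, ⁅y, g⁆ ∈ (Y ⊔ Yg) ⊓ B := by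
    intro y hy
    refine ⟨?_, hcomm y hy⟩
    have : ⁅y, g⁆ = y * (g * y⁻¹ * g⁻¹) := by simp [commutatorElement_def, mul_assoc]
    rw [this]
    exact mul_mem_sup hy ⟨y⁻¹, Y.inv_mem hy, rfl⟩
  have hdec : ∀ u ∈ Y ⊔ Yg, ∃ y₁ ∈ Y, ∃ y ∈ Y, u = y₁ * ⁅y, g⁆ := by
    intro u hu
    rw [← SetLike.mem_coe, cd_coe_sup hY hYg_cd] at hu
    obtain ⟨a, ha, _, ⟨b, hb, rfl⟩, rfl⟩ := hu
    refine ⟨a * b, Y.mul_mem ha hb, b⁻¹, Y.inv_mem hb, ?_⟩
    simp [commutatorElement_def, mul_assoc]
  set X := (Y ⊔ Yg) ⊓ B with hX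
  have hXY : Y ⊓ X = Z := by
    rw [hX, ← inf_assoc, inf_of_le_left (le_sup_left : Y ≤ Y ⊔ Yg), hYB]
  have h1 : Nat.card ↥(Y ⊔ Yg) * Nat.card Z = Nat.card Y * Nat.card Y := by
    have := (cd_core hY hYg_cd).2.2.1
    rwa [hinf, hcardg] at this
  have h2 : Nat.card ↥(Y ⊔ Yg) * Nat.card Z = Nat.card Y * Nat.card X := by
    rw [← card_mul_mul_card_inf Y X, hXY]
    congr 1
    have : ((Y ⊔ Yg : Subgroup G) : Set G) = (Y : Set G) * (X : Set G) := by
      apply Set.Subset.antisymm
      · intro u hu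
        obtain ⟨y₁, h1, y, h2, rfl⟩ := hdec u hu
        exact ⟨y₁, h1, _, hmem y h2, rfl⟩
      · rintro _ ⟨a, ha, b, hb, rfl⟩
        exact mul_mem (mem_sup_left ha) hb.1
    rw [← this]; rfl
  have h3 : Nat.card X = Nat.card Y :=
    (Nat.eq_of_mul_eq_mul_left Nat.card_pos (h1.symm.trans h2)).symm
  have hZX : Z ≤ X := le_inf (hZY.trans le_sup_left) hZB
  refine ⟨X, ?_, isMulCommutative_of_le hB inf_le_right, ?_, ?_⟩
  · apply isCentralizerLarge_of_le
    have hF := cd_sup hY hYg_cd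
    unfold IsCentralizerLarge at hF
    have h4 : Nat.card (centralizer ((Y ⊔ Yg : Subgroup G) : Set G)) * Nat.card B ≤
        Nat.card (centralizer (X : Set G)) *
          Nat.card ↥(centralizer ((Y ⊔ Yg : Subgroup G) : Set G) ⊓ B) :=
      card_mul_le_card_of_subset (centralizer_anti inf_le_left)
        ((isMulCommutative_iff_le.mp hB).trans (centralizer_anti inf_le_right))
    have h5 : Nat.card ↥(centralizer ((Y ⊔ Yg : Subgroup G) : Set G) ⊓ B) ≤
        Nat.card ↥(centralizer (Y : Set G) ⊓ B) :=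
      card_le_of_le (inf_le_inf_right _ (centralizer_anti le_sup_left))
    rw [hC] at hcard
    rw [← hF, h3]
    have hpos : 0 < Nat.card B * Nat.card Z := Nat.mul_pos Nat.card_pos Nat.card_pos
    apply Nat.le_of_mul_le_mul_right _ hpos
    calc _ = (Nat.card ↥(Y ⊔ Yg) * Nat.card Z) *
          (Nat.card (centralizer ((Y ⊔ Yg : Subgroup G) : Set G)) * Nat.card B) := by ring
      _ ≤ (Nat.card Y * Nat.card Y) * (Nat.card (centralizer (X : Set G)) *
          Nat.card ↥(centralizer (Y : Set G) ⊓ B)) := by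
        rw [h1]
        exact Nat.mul_le_mul_left _ (h4.trans (Nat.mul_le_mul_left _ h5))
      _ = Nat.card Y * Nat.card (centralizer (X : Set G)) *
          (Nat.card Y * Nat.card ↥(centralizer (Y : Set G) ⊓ B)) := by ring
      _ = _ := by rw [hcard]
  · refine lt_of_le_of_ne hZX fun h => hZne ?_
    exact eq_of_le_of_card_ge hZY (by rw [h, h3])
  · intro u hu
    obtain ⟨y₁, h1, y, h2, rfl⟩ := hdec u hu.1
    refine ⟨y₁, ?_, y, h2, rfl⟩
    rw [← hYB]
    refine ⟨h1, ?_⟩
    have := B.mul_mem hu.2 (B.inv_mem (hcomm y h2))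
    rwa [mul_inv_cancel_right] at this

theorem mem_normalizer_of_le_sup {Z Y X : Subgroup G} {g : G} (hZY : Z ≤ Y) (hY : Y ≤ Z ⊔ X)
    (hX : X ≤ normalizer (Z : Set G)) (hg : g ∈ normalizer (Z : Set G))
    (hgX : g ∈ centralizer (X : Set G)) : g ∈ normalizer (Y : Set G) := by
  apply Core.mem_normalizer_of_forall_conj_mem
  intro y hy
  obtain ⟨z, hz, x, hx, rfl⟩ := (Core.mem_sup_of_le_normalizer_left hX).mp (hY hy)
  have : g * (z * x) * g⁻¹ = (g * z * g⁻¹ * z⁻¹) * (z * x) := by
    calc g * (z * x) * g⁻¹ = g * z * g⁻¹ * (g * x * g⁻¹) := by group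
      _ = g * z * g⁻¹ * x := by rw [← hgX x hx]; group
      _ = _ := by group
  rw [this]
  exact Y.mul_mem (hZY (Z.mul_mem ((mem_normalizer_iff.mp hg z).mp hz) (Z.inv_mem hz))) hy

omit [Finite G] in
theorem commutator_mem_of_normalizes {Z Y B : Subgroup G} {g y : G}
    (hab : IsMulCommutative Y) (hZY : Z ≤ Y)
    (hB : B ≤ normalizer (Z : Set G)) (hg : g ∈ B) (hy : y ∈ Y)
    (hn : Y ≤ normalizer ((Z ⊔ B : Subgroup G) : Set G)) :
    ⁅y, g⁆ ∈ Z ⊔ (B ⊓ centralizer (Z : Set G)) := by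
  have hYQ : Y ≤ centralizer (Z : Set G) :=
    (isMulCommutative_iff_le.mp hab).trans (centralizer_anti hZY)
  rw [← Core.sup_inf_assoc_of_le_normalizer' (hZY.trans hYQ) hB]
  constructor
  · have : ⁅y, g⁆ = (y * g * y⁻¹) * g⁻¹ := rfl
    rw [this]
    exact (Z ⊔ B).mul_mem ((mem_normalizer_iff.mp (hn hy) g).mp (mem_sup_right hg))
      ((Z ⊔ B).inv_mem (mem_sup_right hg))
  · have : ⁅y, g⁆ = y * (g * y⁻¹ * g⁻¹) := by simp [commutatorElement_def, mul_assoc]
    rw [this]
    exact mul_mem (hYQ hy) ((mem_normalizer_iff.mp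
      (Core.normalizer_le_normalizer_centralizer _ (hB hg)) _).mp (inv_mem (hYQ hy)))

/-- Glauberman: some minimal CL-subgroup is normalized by `J(P)` and `P_MCL` -/
theorem exists_mcl_normalized (G : Type*) [Group G] [Finite G] [hG : Group.IsNilpotent G] :
    ∃ Q : Subgroup G, IsMinimalCentrallyLarge Q ∧ thompsonSubgroupA G ≤ normalizer (Q : Set G) ∧
      minimalCentrallyLargeJoin G ≤ normalizer (Q : Set G) := by
  set T := thompsonSubgroupA G ⊔ minimalCentrallyLargeJoin G with hT
  have hTcl : T ≤ centrallyLargeJoin G :=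
    sup_le (sSup_le fun _ hA => maxAb_le_clJoin hA) (sSup_le fun _ h => le_sSup h.1)
  obtain ⟨Z, ⟨hZ, hZab, hZT⟩, hmax⟩ : ∃ Z : Subgroup G, Maximal (fun Z : Subgroup G =>
      IsCentralizerLarge Z ∧ IsMulCommutative Z ∧ T ≤ normalizer (Z : Set G)) Z := by
    have h := isCentrallyLarge_clJoin G
    refine exists_maximal_of_wellFoundedGT _ ⟨centralizer (centrallyLargeJoin G : Set G),
      (cd_centralizer (IsCL.cd h)).1, ?_, ?_⟩
    · have := isMulCommutative_inf_centralizer (centrallyLargeJoin G)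
      rwa [IsCL.inf_centralizer h] at this
    · exact hTcl.trans (le_normalizer.trans (Core.normalizer_le_normalizer_centralizer _))
  set Q := centralizer (Z : Set G) with hQ
  have hQcl : IsCentrallyLarge Q := abelian_cd_cl hZ hZab
  have hCQ : centralizer (Q : Set G) = Z := (cd_centralizer hZ).2.symm
  have hZQ : Z ≤ Q := isMulCommutative_iff_le.mp hZab
  have hTQ : T ≤ normalizer (Q : Set G) :=
    hZT.trans (Core.normalizer_le_normalizer_centralizer _)
  refine ⟨Q, ⟨hQcl, fun R hRQ hR => ?_⟩, le_sup_left.trans hTQ, le_sup_right.trans hTQ⟩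
  by_contra hne
  have key : ∀ i : ℕ, ∃ Y : Subgroup G, IsCentralizerLarge Y ∧ IsMulCommutative Y ∧ Z < Y ∧
      Y ≤ Z ⊔ (⊤ : Subgroup G).lowerCentralSeries i := by
    intro i
    induction i with
    | zero =>
      refine ⟨centralizer (R : Set G), (cd_centralizer (IsCL.cd hR)).1, ?_, ?_, by simp⟩
      · have := isMulCommutative_inf_centralizer R
        rwa [IsCL.inf_centralizer hR] at this
      · refine lt_of_le_of_ne (hCQ ▸ centralizer_anti hRQ) fun h => hne ?_
        rw [(cd_centralizer (IsCL.cd hR)).2, ← h]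
    | succ i ih =>
      obtain ⟨Y₀, hY₀, hY₀ab, hZY₀, hY₀i⟩ := ih
      obtain ⟨Y, hYY₀, ⟨hY, hZY⟩, hmin⟩ := exists_minimal_le_of_wellFoundedLT
        (fun Y : Subgroup G => IsCentralizerLarge Y ∧ Z < Y) Y₀ ⟨hY₀, hZY₀⟩
      have hab : IsMulCommutative Y := isMulCommutative_of_le hY₀ab hYY₀
      have hYi := hYY₀.trans hY₀i
      have hcov : ∀ X : Subgroup G, IsCentralizerLarge X → Z ≤ X → X ≤ Y → X = Z ∨ X = Y := by
        intro X hX h1 h2
        rcases h1.eq_or_lt with h | h
        · exact Or.inl h.symm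
        · exact Or.inr (le_antisymm h2 (hmin ⟨hX, h⟩ h2))
      have hstep : (∃ g : G, ∃ X : Subgroup G, g ∈ normalizer (Z : Set G) ∧
          IsCentralizerLarge X ∧ IsMulCommutative X ∧ Z < X ∧
          ∀ u ∈ X, ∃ z ∈ Z, ∃ y ∈ Y, u = z * ⁅y, g⁆) := by
        by_contra hno
        apply hZY.not_ge
        refine hmax ⟨hY, hab, sup_le (sSup_le fun A hA => ?_) (sSup_le fun R hR => ?_)⟩ hZY.le
        · intro g hg
          by_contra hgY
          have hAZ : A ≤ normalizer (Z : Set G) := (le_sSup hA).trans (le_sup_left.trans hZT)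
          obtain ⟨-, -, hA', -⟩ := cl_maxAb_core hQcl hA
          rw [hCQ, sup_comm, inf_comm] at hA'
          have hYC : IsCentralizerLarge (Y ⊓ (Z ⊔ (A ⊓ Q))) := by
            obtain ⟨-, h2, -, h4⟩ := cl_maxAb_core (abelian_cd_cl hY hab) hA'
            rw [← (cd_centralizer hY).2] at h4
            rw [← h4]
            exact (cd_centralizer (IsCL.cd h2)).1
          rcases hcov _ hYC (le_inf hZY.le le_sup_left) inf_le_left with h | h
          · refine hno ⟨g, ?_⟩
            obtain ⟨X, hX⟩ := replacement_step hY hZY.le hcov (hAZ hg) hA'.1 le_sup_left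
              (fun y hy => commutator_mem_of_normalizes hab hZY.le hAZ hg hy
                (atom_le_normalizer_sup_maxAb hZ hY hab hZY.le hcov hA))
              (by rw [maxAb_centralizer hA', h])
              (by rw [maxAb_centralizer hA']; exact abelian_cd_maxAb_card hY hab hA') hgY
            exact ⟨X, hAZ hg, hX⟩
          · apply hgY
            refine mem_normalizer_of_le_sup hZY.le (h ▸ inf_le_right) (inf_le_left.trans hAZ)
              (hAZ hg) ?_
            exact centralizer_anti inf_le_left (isMulCommutative_iff_le.mp hA.1 hg)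
        · rw [← mcl_eq_inf_sup hR hQcl]
          refine sup_le (inf_le_right.trans (cd_atom_normal hY hZY.le hcov)) ?_
          set W := centralizer (R : Set G) with hW
          have hWcd : IsCentralizerLarge W := (cd_centralizer (IsCL.cd hR.1)).1
          have hWab : IsMulCommutative W := by
            have := isMulCommutative_inf_centralizer R
            rwa [IsCL.inf_centralizer hR.1] at this
          have hRZ : R ≤ normalizer (Z : Set G) := (le_sSup hR).trans (le_sup_right.trans hZT)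
          have hWZ : W ≤ normalizer (Z : Set G) := (IsCL.centralizer_le hR.1).trans hRZ
          have hBcd : IsCentralizerLarge (Z ⊔ (W ⊓ Q)) := cd_sup hZ (cd_inf hWcd (IsCL.cd hQcl))
          have hBab : IsMulCommutative ↥(Z ⊔ (W ⊓ Q)) :=
            isMulCommutative_sup hZab (isMulCommutative_of_le hWab inf_le_left)
              (le_centralizer_iff.mp inf_le_right)
          have hCB : centralizer ((Z ⊔ (W ⊓ Q) : Subgroup G) : Set G) = Z ⊔ (R ⊓ Q) := by
            rw [centralizer_sup, cd_centralizer_inf hWcd (IsCL.cd hQcl), hCQ,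
              ← (cd_centralizer (IsCL.cd hR.1)).2, inf_comm, sup_comm R Z,
              Core.sup_inf_assoc_of_le_normalizer' hZQ hRZ]
          intro g hg
          by_contra hgY
          rcases hcov _ (cd_inf hY (cd_centralizer hBcd).1)
            (le_inf hZY.le (hCB ▸ le_sup_left)) inf_le_left with h | h
          · refine hno ⟨g, ?_⟩
            obtain ⟨X, hX⟩ := replacement_step hY hZY.le hcov (hWZ hg) hBab le_sup_left
              (fun y hy => commutator_mem_of_normalizes hab hZY.le hWZ hg hy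
                (atom_le_normalizer_sup_cd hZ hY hZY.le hcov hWcd)) h
              (cd_card_swap hY hBcd) hgY
            exact ⟨X, hWZ hg, hX⟩
          · apply hgY
            exact mem_normalizer_of_le_sup hZY.le (hCB ▸ h ▸ inf_le_right)
              (inf_le_left.trans hRZ) (hWZ hg) (centralizer_anti inf_le_left hg)
      obtain ⟨g, X, hg, hX, hXab, hZX, hXu⟩ := hstep
      refine ⟨X, hX, hXab, hZX, fun u hu => ?_⟩
      obtain ⟨z, hz, y, hy, rfl⟩ := hXu u hu
      refine mul_mem (mem_sup_left hz) ?_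
      obtain ⟨z', hz', c, hc, rfl⟩ := (Core.mem_sup_of_le_normalizer_right
        le_normalizer_of_normal).mp (hYi hy)
      rw [commutatorElement_mul_left_eq_conj_mul]
      refine mul_mem (mem_sup_right ?_) (mem_sup_left ?_)
      · exact Normal.conj_mem inferInstance _
          (commutator_mem_commutator hc (mem_top g)) _
      · have : ⁅z', g⁆ = z' * (g * z'⁻¹ * g⁻¹) := by simp [commutatorElement_def, mul_assoc]
        rw [this]
        exact Z.mul_mem hz' ((mem_normalizer_iff.mp hg _).mp (Z.inv_mem hz'))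
  obtain ⟨n, hn⟩ := Subgroup.nilpotent_iff_lowerCentralSeries.mp hG
  obtain ⟨Y, -, -, h1, h2⟩ := key n
  rw [hn, sup_bot_eq] at h2
  exact h1.not_ge h2

theorem cl_sup_thompsonA {Q : Subgroup G} (hQ : IsCentrallyLarge Q) :
    IsCentrallyLarge (Q ⊔ thompsonSubgroupA G) := by
  obtain ⟨A, hA⟩ := exists_maxAb G
  have h : Q ⊔ thompsonSubgroupA G = sSup ((fun A => Q ⊔ A) '' maxAbelianSubgroups G) := by
    apply le_antisymm
    · refine sup_le (le_sup_left.trans (le_sSup ⟨A, hA, rfl⟩)) (sSup_le fun B hB => ?_)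
      exact le_sup_right.trans (le_sSup ⟨B, hB, rfl⟩)
    · refine sSup_le ?_
      rintro _ ⟨B, hB, rfl⟩
      exact sup_le_sup_left (le_sSup hB) _
  rw [h]
  refine isCentrallyLarge_sSup ⟨_, A, hA, rfl⟩ ?_
  rintro _ ⟨B, hB, rfl⟩
  exact (cl_maxAb_core hQ hB).2.1

theorem centralizer_center_thompsonA_le_sup {Q : Subgroup G} (hQ : IsCentrallyLarge Q) :
    centralizer ((thompsonSubgroupA G ⊓ centralizer (thompsonSubgroupA G : Set G) :
      Subgroup G) : Set G) ≤ Q ⊔ thompsonSubgroupA G :=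
  centralizer_center_thompsonA_le_of_cl (cl_sup_thompsonA hQ) le_sup_right

theorem mcl_comm_of_top {A : Subgroup G} (hJ : thompsonSubgroupA G = ⊤)
    (hA : A ∈ maxAbelianSubgroups G)
    (h : Nat.card A ^ 2 = Nat.card G * Nat.card (center G)) {Q : Subgroup G}
    (hQ : IsMinimalCentrallyLarge Q) : IsMulCommutative Q := by
  have h1 := IsCL.cd (cl_sup_thompsonA hQ.1)
  unfold IsCentralizerLarge at h1
  rw [hJ, sup_top_eq, card_top, coe_top, centralizer_univ, ← h, ← maxCentralProduct_eq] at h1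
  have h2 : IsCentrallyLarge A := by
    unfold IsCentrallyLarge
    rw [card_center_of_comm hA.1, ← h1, sq]
  exact ((mcl_iff_maxAb_of_comm h2 hA.1 Q).mp hQ).1

theorem centralizer_center_thompsonA_eq_of_comm
    (h : ∀ Q : Subgroup G, IsMinimalCentrallyLarge Q → IsMulCommutative Q) :
    centralizer ((thompsonSubgroupA G ⊓ centralizer (thompsonSubgroupA G : Set G) :
      Subgroup G) : Set G) = thompsonSubgroupA G := by
  obtain ⟨Q₀, hQ₀⟩ := exists_isCentrallyLarge G
  obtain ⟨Q, hQ, -⟩ := exists_minimal_le hQ₀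
  have h1 : Q ≤ thompsonSubgroupA G :=
    le_sSup ((mcl_iff_maxAb_of_comm hQ.1 (h Q hQ) Q).mp hQ)
  have h2 := centralizer_center_thompsonA_le_sup hQ.1
  rw [sup_of_le_right h1] at h2
  exact le_antisymm h2 (le_centralizer_iff.mp inf_le_right)

end CfsgLib.CL
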